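import Mathlib.Data.List.Basic

/-! Generated data: a series of a Sylow `2`-subgroup of `M24` through its abelian section. -/

set_option autoImplicit false

namespace CfsgLib.M24Orbits.Data

/-- The series; its last seven members span the preimage of the abelian subgroup. -/
def sylSeries : List (ℕ × ℕ) := [
  (891437992062390738008774020350347424, 891437992062390738008774020350347424),
  (666809711488312886316263886299597024, 609086554217346682055963260719041216),
  (610972424972249506773862998039800864, 610972424972249506773862998039800864),
  (692777998206362223040155337166630116, 692777998206362223040155337166630116),
  (944365730055136932662436414333878722, 944365730055136932662436414333878722),
  (462489058953527398118002989130397697, 462489058953527398118002989130397697),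
  (237107045786855344344167470233487401, 237107045786855344344167470233487401),
  (983986149556825142484749105729342112, 983986149556825142484749105729342112),
  (237127402897987588130557083093643296, 237127402897987588130557083093643296),
  (217635740495593158175531982639368224, 217635740495593158175531982639368224)]

/-- Four elements generating the group. -/
def sylGens : List ℕ := [
  94940147413288713669072512466132631,
  388639617000141620831632846046452801,
  236290489204431529682219023145086628,
  182183189608344026130548367155648942]

/-- The central involution. -/
def sylZ : ℕ := 216824804891068451800348655785980585

end CfsgLib.M24Orbits.Data
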